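import Mathlib.GroupTheory.Sylow
import Mathlib.GroupTheory.SpecificGroups.Cyclic
import Cfsg.Agent.Cores.Basic

/-!
A `p`-element centralising a Sylow subgroup and its normaliser is trivial over a rank one group.
-/

set_option autoImplicit false
set_option linter.style.haveILetI false
set_option linter.unusedSectionVars false

open Subgroup

namespace Cfsg.Agent.RankOneFix

universe u v

/-- The part of a split rank one group used to see that such an automorphism is trivial. -/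
structure Frame (p : ℕ) (Y : Type v) [Group Y] (U T : Subgroup Y) (b w : Y) : Prop where
  unip : IsPGroup p U
  index : ¬ p ∣ U.index
  centre : ∀ z ∈ center Y, z ^ 6 = 1
  normU : ∀ g : Y, (∀ u ∈ U, g * u * g⁻¹ ∈ U) → ∃ u ∈ U, ∃ t ∈ T, g = u * t
  normT : ∀ t ∈ T, ∀ u ∈ U, t * u * t⁻¹ ∈ U
  cyclic : IsCyclic T
  cop : (Nat.card T).Coprime p
  bmem : b ∈ T
  bpow : b ^ (p - 1) = 1
  fixB : ∀ u ∈ U, u * b = b * u → u = 1
  small : Nat.card ↥(T ⊓ centralizer (U : Set Y)) < p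
  wconj : ∀ t ∈ T, w * t * w⁻¹ ∈ T
  centT : ∀ g : Y, (∀ t ∈ T, g * t * g⁻¹ * t⁻¹ ∈ center Y) → g ∈ T ∨ w * g ∈ T
  gen : closure ((U : Set Y) ∪ T ∪ {w}) = ⊤

theorem eq_top_of_small_index {G : Type u} [Group G] [Finite G] {p : ℕ} [hp : Fact p.Prime] (hG : IsPGroup p G)
    (H : Subgroup G) {R : Type v} [Finite R] (hR : Nat.card R < p) (f : G → R)
    (hf : ∀ a c, f a = f c → a⁻¹ * c ∈ H) : H = ⊤ := by
  have hle : H.index ≤ Nat.card R := by
    refine Nat.card_le_card_of_injective (fun x : G ⧸ H => f x.out) fun x y hxy => ?_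
    rw [← QuotientGroup.out_eq' x, ← QuotientGroup.out_eq' y]
    exact QuotientGroup.eq.2 (hf _ _ hxy)
  obtain ⟨k, hk⟩ := hG.index H
  rw [← index_eq_one, hk]
  rcases Nat.eq_zero_or_pos k with rfl | hk0
  · rfl
  · exact absurd (hk ▸ (Nat.le_self_pow hk0.ne' p)) (by omega)

/-- A `p`-group cannot move anything inside a set with fewer than `p` elements. -/
theorem commute_of_small {G : Type u} [Group G] [Finite G] {p : ℕ} [hp : Fact p.Prime] {A : Subgroup G}
    (hA : IsPGroup p A) {R : Set G} (hR : Nat.card R < p) {x : G}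
    (h : ∀ a ∈ A, a * x * a⁻¹ ∈ R) : ∀ a ∈ A, a * x = x * a := by
  have key := eq_top_of_small_index hA ((centralizer ({x} : Set G)).subgroupOf A) hR
    (fun a : ↥A => (⟨(a : G) * x * (a : G)⁻¹, h a a.2⟩ : R)) fun a c hac => ?_
  · intro a ha
    have h1 : (⟨a, ha⟩ : ↥A) ∈ (centralizer ({x} : Set G)).subgroupOf A := key ▸ mem_top _
    exact mem_centralizer_singleton_iff.1 h1
  · rw [mem_subgroupOf, mem_centralizer_singleton_iff]
    have e : (a : G) * x * (a : G)⁻¹ = c * x * (c : G)⁻¹ := congrArg Subtype.val hac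
    push_cast
    calc (a : G)⁻¹ * c * x = (a : G)⁻¹ * (c * x * (c : G)⁻¹) * c := by group
      _ = (a : G)⁻¹ * (a * x * (a : G)⁻¹) * c := by rw [e]
      _ = _ := by group

theorem pow_mul_normal {Y : Type v} [Group Y] {U T : Subgroup Y}
    (h : ∀ t ∈ T, ∀ u ∈ U, t * u * t⁻¹ ∈ U) {u t : Y} (hu : u ∈ U) (ht : t ∈ T) (n : ℕ) :
    ∃ u' ∈ U, (u * t) ^ n = u' * t ^ n := by
  induction n with
  | zero => exact ⟨1, one_mem U, by simp⟩
  | succ n ih =>
    obtain ⟨u', hu', e⟩ := ih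
    refine ⟨u' * (t ^ n * u * (t ^ n)⁻¹), mul_mem hu' (h _ (pow_mem ht n) u hu), ?_⟩
    rw [pow_succ, e, pow_succ]; group

/-- An element of `p`-power order shifting a point by a fixed element of order prime to `p`. -/
theorem eq_one_of_shift {G : Type u} [Group G] [Finite G] {p : ℕ} [hp : Fact p.Prime] {A : Subgroup G} (hA : IsPGroup p A)
    {σ x d : G} (hσ : σ ∈ A) (hσd : σ * d = d * σ) (h : σ * x * σ⁻¹ = x * d)
    (hd : (orderOf d).Coprime p) : d = 1 := by
  have h1 : ∀ k : ℕ, σ ^ k * x * (σ ^ k)⁻¹ = x * d ^ k := by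
    intro k
    induction k with
    | zero => simp
    | succ k ih =>
      have e : σ * d ^ k * σ⁻¹ = d ^ k := by
        rw [((show Commute σ d from hσd).pow_right k).eq, mul_inv_cancel_right]
      calc σ ^ (k + 1) * x * (σ ^ (k + 1))⁻¹ = σ * (σ ^ k * x * (σ ^ k)⁻¹) * σ⁻¹ := by
            rw [pow_succ']; group
        _ = (σ * x * σ⁻¹) * (σ * d ^ k * σ⁻¹) := by rw [ih]; group
        _ = x * (d * d ^ k) := by rw [h, e, mul_assoc]
        _ = _ := by rw [pow_succ']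
  obtain ⟨m, hm⟩ := IsPGroup.iff_orderOf.1 hA ⟨σ, hσ⟩
  rw [← Subgroup.orderOf_coe] at hm
  have h2 := h1 (p ^ m)
  rw [← hm] at h2
  simp only [pow_orderOf_eq_one, one_mul, inv_one, mul_one] at h2
  have h3 : orderOf d ∣ p ^ m := hm ▸ orderOf_dvd_of_pow_eq_one (mul_eq_left.1 h2.symm)
  exact orderOf_eq_one_iff.1 (Nat.eq_one_of_dvd_coprimes (hd.pow_right m) dvd_rfl h3)

theorem coprime_six {p : ℕ} [hp : Fact p.Prime] (hp5 : 5 ≤ p) : Nat.Coprime 6 p := by
  rw [Nat.coprime_comm, hp.out.coprime_iff_not_dvd]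
  intro hd
  have := Nat.le_of_dvd (by norm_num) hd
  interval_cases p <;> first | omega | exact absurd hp.out (by decide)

variable {Y : Type v} [Group Y] [Finite Y] {G : Type u} [Group G] [Finite G] {p : ℕ} [hp : Fact p.Prime]

theorem eq_one_of_frame (hp5 : 5 ≤ p) {U T : Subgroup Y} {b w : Y} (D : Frame p Y U T b w)
    (X : Subgroup G) [X.Normal] (S : Sylow p G) (hsup : X ⊔ (S : Subgroup G) = ⊤)
    (hcore : Cfsg.pCore p G = ⊥) (π₀ : Y →* ↥X) (hπ₀ : Function.Surjective π₀)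
    (hker : π₀.ker ≤ center Y) {σ : G} (hσ : σ ∈ (S : Subgroup G))
    (hσS : ∀ s ∈ (S : Subgroup G), σ * s = s * σ)
    (hσN : ∀ g : G, (∀ s ∈ (S : Subgroup G), g * s * g⁻¹ ∈ (S : Subgroup G)) → σ * g = g * σ) :
    σ = 1 := by
  classical
  -- align the Sylow subgroups
  obtain ⟨h, hh⟩ : ∃ h : ↥X, ((U.map π₀).map (MulAut.conj h).toMonoidHom) = (S : Subgroup G).subgroupOf X := by
    have h1 : ¬ p ∣ (U.map π₀).index := fun hd => D.index (hd.trans (index_map_dvd U hπ₀))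
    have h2 : ¬ p ∣ ((S : Subgroup G).subgroupOf X).index := by
      intro hd
      refine S.not_dvd_index ?_
      have e1 : X.relIndex (S : Subgroup G) = X.index := by
        rw [← relIndex_sup_right (H := (S : Subgroup G)), sup_comm, hsup, relIndex_top_right]
      have e2 : ((S : Subgroup G) ⊓ X).relIndex X * X.index = ((S : Subgroup G) ⊓ X).index :=
        relIndex_mul_index inf_le_right
      have e3 : ((S : Subgroup G) ⊓ X).relIndex S * (S : Subgroup G).index = ((S : Subgroup G) ⊓ X).index :=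
        relIndex_mul_index inf_le_left
      rw [inf_relIndex_right] at e2
      rw [inf_relIndex_left, e1, ← e2, mul_comm] at e3
      rw [Nat.eq_of_mul_eq_mul_right (Nat.pos_of_ne_zero index_ne_zero_of_finite) e3]
      exact hd
    obtain ⟨g, hg⟩ := MulAction.exists_smul_eq ↥X
      ((D.unip.map π₀).toSylow h1) ((S.2.comap_of_injective X.subtype (Subgroup.subtype_injective X)).toSylow h2)
    refine ⟨g, ?_⟩
    have := congrArg (fun P : Sylow p ↥X => (P : Subgroup ↥X)) hg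
    simp only [Sylow.coe_subgroup_smul] at this
    exact this
  set π : Y →* G := X.subtype.comp ((MulAut.conj h).toMonoidHom.comp π₀) with hπ
  have hπker : ∀ y, π y = 1 → y ∈ center Y := fun y hy => hker (by
    rw [MonoidHom.mem_ker]
    exact (MulAut.conj h).injective (Subgroup.subtype_injective X (by simpa [hπ] using hy)))
  have hπX : ∀ y, π y ∈ X := fun y => ((MulAut.conj h) (π₀ y)).2
  have hπs : ∀ x ∈ X, ∃ y, π y = x := fun x hx => by
    obtain ⟨y, hy⟩ := hπ₀ ((MulAut.conj h).symm ⟨x, hx⟩)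
    exact ⟨y, by simp [hπ, hy]; group⟩
  have hUS : ∀ x, x ∈ X → (x ∈ (S : Subgroup G) ↔ ∃ u ∈ U, π u = x) := fun x hx => by
    have e : (⟨x, hx⟩ : ↥X) ∈ (U.map π₀).map (MulAut.conj h).toMonoidHom ↔ x ∈ (S : Subgroup G) := by
      rw [hh]; exact mem_subgroupOf
    rw [← e]
    constructor
    · rintro ⟨_, ⟨u, hu, rfl⟩, he⟩; exact ⟨u, hu, congrArg Subtype.val he⟩
    · rintro ⟨u, hu, rfl⟩; exact ⟨_, ⟨u, hu, rfl⟩, rfl⟩
  have hπU : ∀ u ∈ U, π u ∈ (S : Subgroup G) := fun u hu => (hUS _ (hπX u)).2 ⟨u, hu, rfl⟩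
  have hord : ∀ z, π z = 1 → ∀ k : ℕ, z ^ p ^ k = 1 → z = 1 := fun z hz k hk => by
    have h6 := D.centre z (hπker z hz)
    have hc : Nat.Coprime 6 (p ^ k) := Nat.Coprime.pow_right k (coprime_six hp5)
    have := pow_gcd_eq_one.2 ⟨h6, hk⟩
    rwa [hc.gcd_eq_one, pow_one] at this
  have hU1 : ∀ z ∈ U, π z = 1 → z = 1 := fun z hz h0 => by
    obtain ⟨k, hk⟩ := IsPGroup.iff_orderOf.1 D.unip ⟨z, hz⟩
    rw [← Subgroup.orderOf_coe] at hk
    exact hord z h0 k (hk ▸ pow_orderOf_eq_one z)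
  have hinjU : ∀ u ∈ U, ∀ u' ∈ U, π u = π u' → u = u' := fun u hu u' hu' e =>
    eq_of_mul_inv_eq_one (hU1 _ (mul_mem hu (inv_mem hu')) (by rw [map_mul, map_inv, e, mul_inv_cancel]))
  -- preimages of elements normalising the unipotent group normalise it
  have hlift : ∀ y, (∀ u ∈ U, π (y * u * y⁻¹) ∈ (S : Subgroup G)) → ∀ u ∈ U, y * u * y⁻¹ ∈ U := by
    intro y hy u hu
    obtain ⟨u', hu', e⟩ := (hUS _ (hπX _)).1 (hy u hu)
    set z := u'⁻¹ * (y * u * y⁻¹) with hz
    have hz1 : π z = 1 := by rw [hz, map_mul, map_inv, e, inv_mul_cancel]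
    have hcz : Commute u' z := mem_center_iff.1 (hπker z hz1) u'
    obtain ⟨k, hk⟩ := IsPGroup.iff_orderOf.1 D.unip ⟨u, hu⟩
    obtain ⟨l, hl⟩ := IsPGroup.iff_orderOf.1 D.unip ⟨u', hu'⟩
    rw [← Subgroup.orderOf_coe] at hk hl
    simp only at hk hl
    have h1 : (y * u * y⁻¹) ^ p ^ (k + l) = 1 := by
      rw [conj_pow, orderOf_dvd_iff_pow_eq_one.1 (hk ▸ pow_dvd_pow p (Nat.le_add_right k l))]; simp
    have h2 : u' ^ p ^ (k + l) = 1 :=
      orderOf_dvd_iff_pow_eq_one.1 (hl ▸ pow_dvd_pow p (Nat.le_add_left l k))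
    have e2 : y * u * y⁻¹ = u' * z := by rw [hz]; group
    rw [e2, hcz.mul_pow, h2, one_mul] at h1
    rw [e2, hord z hz1 _ h1, mul_one]
    exact hu'
  have hTcop : ∀ t ∈ T, (orderOf (π t)).Coprime p := fun t ht =>
    Nat.Coprime.coprime_dvd_left ((orderOf_map_dvd π t).trans (by
      rw [← Subgroup.orderOf_mk t ht]; exact orderOf_dvd_natCard _)) D.cop
  -- the torus element `b` normalises `S`
  have hX := (inferInstance : X.Normal)
  have hb : ∀ a ∈ (S : Subgroup G), a * π b * a⁻¹ * (π b)⁻¹ ∈ (S : Subgroup G) := by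
    haveI : IsCyclic T := D.cyclic
    haveI : IsCyclic ↥(T.map π) := isCyclic_of_surjective (π.subgroupMap T) (MonoidHom.subgroupMap_surjective _ _)
    let H : Subgroup ↥(S : Subgroup G) :=
      { carrier := {a | (a : G) * π b * (a : G)⁻¹ * (π b)⁻¹ ∈ (S : Subgroup G)}
        one_mem' := by simp
        mul_mem' := fun {a c} ha hc => by
          show ((a * c : ↥(S : Subgroup G)) : G) * π b * ((a * c : ↥(S : Subgroup G)) : G)⁻¹ * (π b)⁻¹ ∈ (S : Subgroup G)
          rw [Subgroup.coe_mul, show (a : G) * c * π b * ((a : G) * c)⁻¹ * (π b)⁻¹ =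
            ((a : G) * ((c : G) * π b * (c : G)⁻¹ * (π b)⁻¹) * (a : G)⁻¹) *
              ((a : G) * π b * (a : G)⁻¹ * (π b)⁻¹) by group]
          exact mul_mem (mul_mem (mul_mem a.2 hc) (inv_mem a.2)) ha
        inv_mem' := fun {a} ha => by
          show ((a⁻¹ : ↥(S : Subgroup G)) : G) * π b * ((a⁻¹ : ↥(S : Subgroup G)) : G)⁻¹ * (π b)⁻¹ ∈ (S : Subgroup G)
          rw [Subgroup.coe_inv, show (a : G)⁻¹ * π b * ((a : G)⁻¹)⁻¹ * (π b)⁻¹ =
            (a : G)⁻¹ * ((a : G) * π b * (a : G)⁻¹ * (π b)⁻¹)⁻¹ * (a : G) by group]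
          exact mul_mem (mul_mem (inv_mem a.2) (inv_mem ha)) a.2 }
    let R := {t : ↥(T.map π) // t ^ (p - 1) = 1}
    haveI : Fintype ↥(T.map π) := Fintype.ofFinite _
    have hR : Nat.card R < p := by
      rw [Nat.card_eq_fintype_card, Fintype.card_subtype]
      exact lt_of_le_of_lt (IsCyclic.card_pow_eq_one_le (by omega)) (by omega)
    have hex : ∀ a : ↥(S : Subgroup G), ∃ r : R, ∃ u ∈ U, (a : G) * π b * (a : G)⁻¹ = π u * (r.1 : G) := by
      intro a
      obtain ⟨y, hy⟩ := hπs _ (hX.conj_mem _ (hπX b) (a : G))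
      obtain ⟨u, hu, t, ht, rfl⟩ := D.normU y (hlift y fun u hu => by
        rw [map_mul, map_mul, map_inv, hy]
        have e : (a : G) * π b * (a : G)⁻¹ * π u * ((a : G) * π b * (a : G)⁻¹)⁻¹ =
            (a : G) * (π b * ((a : G)⁻¹ * π u * (a : G)) * (π b)⁻¹) * (a : G)⁻¹ := by group
        rw [e]
        obtain ⟨v, hv, hve⟩ := (hUS _ (by simpa using hX.conj_mem _ (hπX u) (a : G)⁻¹)).1
          (mul_mem (mul_mem (inv_mem a.2) (hπU u hu)) a.2)
        rw [← hve, ← map_mul, ← map_inv, ← map_mul]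
        exact mul_mem (mul_mem a.2 (hπU _ (D.normT b D.bmem v hv))) (inv_mem a.2))
      obtain ⟨u', hu', e⟩ := pow_mul_normal D.normT hu ht (p - 1)
      have h1 : π (t ^ (p - 1)) = (π u')⁻¹ := by
        refine eq_inv_of_mul_eq_one_right ?_
        rw [← map_mul, ← e, map_pow, hy, conj_pow, ← map_pow, D.bpow, map_one]; simp
      have h2 : π (t ^ (p - 1)) = 1 := by
        obtain ⟨k, hk⟩ := IsPGroup.iff_orderOf.1 S.2 ⟨π u', hπU u' hu'⟩
        rw [← Subgroup.orderOf_coe] at hk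
        refine orderOf_eq_one_iff.1 (Nat.eq_one_of_dvd_coprimes ((hTcop _ (pow_mem ht _)).pow_right k) dvd_rfl ?_)
        rw [h1, orderOf_inv]; exact dvd_of_eq hk
      exact ⟨⟨⟨π t, mem_map_of_mem π ht⟩, Subtype.ext (by rw [SubmonoidClass.coe_pow, ← map_pow, h2]; rfl)⟩,
        u, hu, by rw [← hy, map_mul]⟩
    choose r u hu hr using hex
    have hH : H = ⊤ := eq_top_of_small_index S.2 H hR r fun a c hac => by
      have e1 : ((a : G) * π b * (a : G)⁻¹) * ((c : G) * π b * (c : G)⁻¹)⁻¹ ∈ (S : Subgroup G) := by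
        rw [hr a, hr c, hac, show π (u a) * ((r c).1 : G) * (π (u c) * ((r c).1 : G))⁻¹ = π (u a) * (π (u c))⁻¹ by group]
        exact mul_mem (hπU _ (hu a)) (inv_mem (hπU _ (hu c)))
      have e2 : (a : G)⁻¹ * (((a : G) * π b * (a : G)⁻¹) * ((c : G) * π b * (c : G)⁻¹)⁻¹)⁻¹ * (a : G) ∈
          (S : Subgroup G) := mul_mem (mul_mem (inv_mem a.2) (inv_mem e1)) a.2
      show ((a⁻¹ * c : ↥(S : Subgroup G)) : G) * π b * ((a⁻¹ * c : ↥(S : Subgroup G)) : G)⁻¹ * (π b)⁻¹ ∈ (S : Subgroup G)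
      push_cast
      convert e2 using 1
      group
    intro a ha
    exact (hH ▸ mem_top (⟨a, ha⟩ : ↥(S : Subgroup G)) : (⟨a, ha⟩ : ↥(S : Subgroup G)) ∈ H)
  have hσb : σ * π b = π b * σ := hσN _ fun s hs => by
    have h1 := mul_mem (inv_mem (hb s hs)) hs
    rwa [show (s * π b * s⁻¹ * (π b)⁻¹)⁻¹ * s = π b * s * (π b)⁻¹ by group] at h1
  have hσU : ∀ u ∈ U, σ * π u = π u * σ := fun u hu => hσS _ (hπU u hu)
  set C₀ : Subgroup Y := T ⊓ centralizer (U : Set Y) with hC₀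
  -- conjugates of torus elements
  have hTt : ∀ (a : G), (∀ u ∈ U, a * π u = π u * a) → a * π b = π b * a → ∀ t ∈ T,
      ∃ c ∈ C₀, a * π t * a⁻¹ = π t * π c := by
    intro a haU hab t ht
    obtain ⟨y, hy⟩ := hπs _ (hX.conj_mem _ (hπX t) a)
    have hact : ∀ u ∈ U, π (y * u * y⁻¹) = π (t * u * t⁻¹) := by
      intro u hu
      have e2 : a⁻¹ * π u * a = π u := by rw [mul_assoc, ← haU u hu, inv_mul_cancel_left]
      have e4 := haU _ (D.normT t ht u hu)
      rw [map_mul, map_mul, map_inv] at e4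
      rw [map_mul, map_mul, map_inv, hy, map_mul, map_mul, map_inv]
      calc a * π t * a⁻¹ * π u * (a * π t * a⁻¹)⁻¹ = a * (π t * (a⁻¹ * π u * a) * (π t)⁻¹) * a⁻¹ := by group
        _ = a * (π t * π u * (π t)⁻¹) * a⁻¹ := by rw [e2]
        _ = _ := by rw [e4, mul_inv_cancel_right]
    have hact' : ∀ u ∈ U, y * u * y⁻¹ = t * u * t⁻¹ := fun u hu => by
      refine hinjU _ (hlift y (fun v hv => ?_) u hu) _ (D.normT t ht u hu) (hact u hu)
      rw [hact v hv]; exact hπU _ (D.normT t ht v hv)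
    obtain ⟨u₀, hu₀, t₀, ht₀, rfl⟩ := D.normU y fun u hu => by rw [hact' u hu]; exact D.normT t ht u hu
    have htb : t * b = b * t := by
      haveI := D.cyclic
      letI := IsCyclic.commGroup (α := T)
      exact congrArg Subtype.val (mul_comm (⟨t, ht⟩ : T) ⟨b, D.bmem⟩)
    have ht₀b : t₀ * b = b * t₀ := by
      haveI := D.cyclic
      letI := IsCyclic.commGroup (α := T)
      exact congrArg Subtype.val (mul_comm (⟨t₀, ht₀⟩ : T) ⟨b, D.bmem⟩)
    have hu1 : u₀ = 1 := by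
      refine D.fixB u₀ hu₀ ?_
      have hc : π (u₀ * t₀) * π b = π b * π (u₀ * t₀) := by
        rw [hy]
        exact ((Commute.mul_left (Commute.mul_left hab (congrArg π htb |> fun e => by
          simpa [Commute, SemiconjBy] using e)) (Commute.inv_left hab)) : Commute (a * π t * a⁻¹) (π b)).eq
      have hk : π (u₀ * (b * u₀⁻¹ * b⁻¹)) = 1 := by
        have e : u₀ * (b * u₀⁻¹ * b⁻¹) = (u₀ * t₀) * b * (u₀ * t₀)⁻¹ * b⁻¹ := by
          have : t₀ * b * t₀⁻¹ = b := by rw [ht₀b, mul_inv_cancel_right]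
          calc u₀ * (b * u₀⁻¹ * b⁻¹) = u₀ * (t₀ * b * t₀⁻¹) * u₀⁻¹ * b⁻¹ := by rw [this]; group
            _ = _ := by group
        rw [e, map_mul, map_mul, map_mul, hc, map_inv, map_inv]; group
      have := hU1 _ (mul_mem hu₀ (D.normT b D.bmem _ (inv_mem hu₀))) hk
      calc u₀ * b = u₀ * (b * u₀⁻¹ * b⁻¹) * (b * u₀) := by group
        _ = b * u₀ := by rw [this, one_mul]
    rw [hu1, one_mul] at hy hact'
    refine ⟨t⁻¹ * t₀, mem_inf.2 ⟨mul_mem (inv_mem ht) ht₀, mem_centralizer_iff.2 fun u hu => ?_⟩, ?_⟩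
    · have := hact' u hu
      calc u * (t⁻¹ * t₀) = t⁻¹ * (t * u * t⁻¹) * t₀ := by group
        _ = t⁻¹ * (t₀ * u * t₀⁻¹) * t₀ := by rw [this]
        _ = _ := by group
    · rw [map_mul, map_inv, hy]; group
  have hσT : ∀ t ∈ T, σ * π t * σ⁻¹ = π t := by
    intro t ht
    obtain ⟨c, hc, e⟩ := hTt σ hσU hσb t ht
    have hcσ : σ * π c = π c * σ := by
      have hR : Nat.card (C₀.map π : Set G) < p :=
        lt_of_le_of_lt (Nat.card_le_card_of_surjective (π.subgroupMap C₀) (MonoidHom.subgroupMap_surjective _ _)) D.small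
      refine commute_of_small (A := zpowers σ) (S.2.to_le (zpowers_le.2 hσ)) hR (fun a ha => ?_) σ (mem_zpowers σ)
      obtain ⟨j, rfl⟩ := mem_zpowers_iff.1 ha
      have hU' : ∀ u ∈ U, σ ^ j * π u = π u * σ ^ j := fun u hu =>
        (Commute.zpow_left (hσU u hu : Commute σ (π u)) j).eq
      obtain ⟨c', hc', e'⟩ := hTt (σ ^ j) hU' ((Commute.zpow_left (hσb : Commute σ (π b)) j).eq) c hc.1
      exact ⟨c * c', mul_mem hc hc', by rw [map_mul]; exact e'.symm⟩
    rw [e, eq_one_of_shift S.2 hσ hcσ e (hTcop c hc.1), mul_one]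
  have hσT' : ∀ t ∈ T, σ * π t = π t * σ := fun t ht => mul_inv_eq_iff_eq_mul.1 (hσT t ht)
  have hσw : σ * π w = π w * σ := by
    obtain ⟨y, hy⟩ := hπs _ (hX.conj_mem _ (hπX w) σ)
    set g := w⁻¹ * y with hg
    have hc : ∀ t ∈ T, g * t * g⁻¹ * t⁻¹ ∈ center Y := by
      intro t ht
      refine hπker _ ?_
      have e2 : σ * (π w * π t * (π w)⁻¹) * σ⁻¹ = π w * π t * (π w)⁻¹ := by
        rw [← map_mul, ← map_inv, ← map_mul]; exact hσT _ (D.wconj t ht)
      have e3 : σ⁻¹ * π t * σ = π t := by rw [mul_assoc, ← hσT' t ht, inv_mul_cancel_left]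
      rw [hg]
      simp only [map_mul, map_inv, mul_inv_rev, inv_inv, hy]
      calc (π w)⁻¹ * (σ * π w * σ⁻¹) * π t * (σ * ((π w)⁻¹ * σ⁻¹) * π w) * (π t)⁻¹
          = (π w)⁻¹ * (σ * (π w * (σ⁻¹ * π t * σ) * (π w)⁻¹) * σ⁻¹) * π w * (π t)⁻¹ := by group
        _ = 1 := by rw [e3, e2]; group
    have hy' : σ * π w * σ⁻¹ = π w * π g := by rw [← hy, hg, map_mul, map_inv]; group
    rcases D.centT g hc with h1 | h1
    · have := eq_one_of_shift S.2 hσ (hσT' g h1) hy' (hTcop g h1)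
      rw [this, mul_one] at hy'
      exact mul_inv_eq_iff_eq_mul.1 hy'
    · have e : w * g = y := by rw [hg]; group
      rw [e] at h1
      have e1 := hσT y h1
      rw [hy] at e1
      exact mul_inv_eq_iff_eq_mul.1 (mul_left_cancel (mul_right_cancel e1))
  -- `σ` centralises `X`
  have hσX : ∀ x ∈ X, σ * x = x * σ := by
    have h1 : closure ((U : Set Y) ∪ T ∪ {w}) ≤ (centralizer ({σ} : Set G)).comap π :=
      (closure_le _).2 fun y hy => by
        show π y ∈ centralizer ({σ} : Set G)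
        rw [mem_centralizer_singleton_iff]
        rcases hy with (hy | hy) | rfl
        · exact (hσU y hy).symm
        · exact (hσT' y hy).symm
        · exact hσw.symm
    rw [D.gen] at h1
    intro x hx
    obtain ⟨y, rfl⟩ := hπs x hx
    exact (mem_centralizer_singleton_iff.1 (h1 (mem_top y))).symm
  set R : Subgroup G := (S : Subgroup G) ⊓ centralizer (X : Set G) with hR
  have hRn : R.Normal := by
    refine normalizer_eq_top_iff.1 (top_le_iff.1 (hsup ▸ sup_le ?_ ?_))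
    · intro x hx
      refine mem_normalizer_iff.2 fun r => ⟨fun hr => ?_, fun hr => ?_⟩
      · rwa [show x * r * x⁻¹ = r by rw [mem_centralizer_iff.1 hr.2 x hx, mul_inv_cancel_right]]
      · have e : x⁻¹ * (x * r * x⁻¹) = (x * r * x⁻¹) * x⁻¹ := mem_centralizer_iff.1 hr.2 x⁻¹ (inv_mem hx)
        have e2 : r = x * r * x⁻¹ := by
          calc r = x⁻¹ * (x * r * x⁻¹) * x := by group
            _ = (x * r * x⁻¹) * x⁻¹ * x := by rw [e]
            _ = _ := by group
        rw [e2]; exact hr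
    · intro s hs
      refine mem_normalizer_iff.2 fun r => ?_
      rw [hR, mem_inf, mem_inf]
      constructor
      · rintro ⟨hr, hr'⟩
        refine ⟨mul_mem (mul_mem hs hr) (inv_mem hs), mem_centralizer_iff.2 fun x hx => ?_⟩
        have := mem_centralizer_iff.1 hr' (s⁻¹ * x * s) (by simpa using hX.conj_mem x hx s⁻¹)
        calc x * (s * r * s⁻¹) = s * ((s⁻¹ * x * s) * r) * s⁻¹ := by group
          _ = s * (r * (s⁻¹ * x * s)) * s⁻¹ := by rw [this]
          _ = _ := by group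
      · rintro ⟨hr, hr'⟩
        refine ⟨by simpa [mul_assoc] using mul_mem (mul_mem (inv_mem hs) hr) hs,
          mem_centralizer_iff.2 fun x hx => ?_⟩
        have := mem_centralizer_iff.1 hr' (s * x * s⁻¹) (hX.conj_mem x hx s)
        calc x * r = s⁻¹ * ((s * x * s⁻¹) * (s * r * s⁻¹)) * s := by group
          _ = s⁻¹ * ((s * r * s⁻¹) * (s * x * s⁻¹)) * s := by rw [this]
          _ = _ := by group
  have hR1 : R ≤ Cfsg.pCore p G := Cores.le_pCore hRn (S.2.to_le inf_le_left)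
  have hmem : σ ∈ R := mem_inf.2 ⟨hσ, mem_centralizer_iff.2 fun x hx => (hσX x hx).symm⟩
  simpa [hcore] using hR1 hmem

end Cfsg.Agent.RankOneFix
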