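import Cfsg.Agent.RankOneFix.Basic
import Cfsg.Agent.RankOneFix.U3
import Cfsg.Agent.Linear.GLTwo
import Cfsg.Agent.Linear.Orders
import Cfsg.Agent.EvenLocal.TraceOrder

/-!
`SL₂(q)` and `SU₃(q)` have the frame of a split rank one group in characteristic at least five.
-/

set_option autoImplicit false
set_option linter.style.haveILetI false
set_option linter.unusedSectionVars false

open Subgroup
open scoped MatrixGroups

namespace Cfsg.Agent.RankOneFix

variable {F : Type} [Field F] [Fintype F] {p : ℕ} [hp : Fact p.Prime]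

theorem natCast_ne_zero_of_lt [CharP F p] {n : ℕ} (h : 0 < n) (hn : n < p) : (n : F) ≠ 0 := fun e =>
  (Nat.not_dvd_of_pos_of_lt h hn) ((CharP.cast_eq_zero_iff F p n).1 e)

/-- A scalar of the prime field separating the root characters. -/
theorem exists_scalar [CharP F p] (hp5 : 5 ≤ p) :
    ∃ c : Fˣ, c ^ (p - 1) = 1 ∧ (c : F) ^ 2 ≠ 1 ∧ (c : F) ^ 3 ≠ 1 := by
  have key : ∀ n : ℕ, 0 < n → n < p → (n : F) ^ 2 ≠ 1 → (n : F) ^ 3 ≠ 1 →
      ∃ c : Fˣ, c ^ (p - 1) = 1 ∧ (c : F) ^ 2 ≠ 1 ∧ (c : F) ^ 3 ≠ 1 := by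
    intro n h0 hn h2 h3
    refine ⟨Units.mk0 _ (natCast_ne_zero_of_lt h0 hn), Units.ext ?_, h2, h3⟩
    haveI : ExpChar F p := ExpChar.prime hp.out
    have e : (n : F) ^ p = (n : F) := map_natCast (frobenius F p) n
    rw [Units.val_pow_eq_pow_val, Units.val_one, Units.val_mk0]
    refine mul_left_cancel₀ (natCast_ne_zero_of_lt (F := F) h0 hn) ?_
    rw [← pow_succ', Nat.sub_add_cancel (by omega), mul_one, e]
  have h2 : (2 : F) ≠ 0 := by exact_mod_cast natCast_ne_zero_of_lt (F := F) (n := 2) (by norm_num) (by omega)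
  have h3 : (3 : F) ≠ 0 := by exact_mod_cast natCast_ne_zero_of_lt (F := F) (n := 3) (by norm_num) (by omega)
  have h22 : ((2 : ℕ) : F) ^ 2 ≠ 1 := by
    intro h; apply h3; push_cast at h; linear_combination h
  by_cases h8 : ((2 : ℕ) : F) ^ 3 = 1
  · refine key 3 (by norm_num) (by omega) ?_ ?_
    · intro h; push_cast at h h8
      exact one_ne_zero (α := F) (by linear_combination h - h8)
    · intro h; push_cast at h h8
      have h5 : (5 : F) = 0 := by linear_combination h - 3 * h8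
      exact h2 (by linear_combination h8 - h5)
  · exact key 2 (by norm_num) (by omega) h22 h8

/-- The diagonal torus of `SL₂`. -/
def diag2 : Fˣ →* SL(2, F) where
  toFun x := ⟨!![(x : F), 0; 0, ((x⁻¹ : Fˣ) : F)], by simp [Matrix.det_fin_two]⟩
  map_one' := by apply Linear.slTwo_ext <;> simp
  map_mul' x y := by
    apply Subtype.ext
    show !![((x * y : Fˣ) : F), 0; 0, (((x * y)⁻¹ : Fˣ) : F)] =
      !![(x : F), 0; 0, ((x⁻¹ : Fˣ) : F)] * !![(y : F), 0; 0, ((y⁻¹ : Fˣ) : F)]
    rw [Matrix.mul_fin_two]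
    ext i j
    fin_cases i <;> fin_cases j <;> simp [mul_comm]

theorem diag2_apply (x : Fˣ) : (diag2 x : Matrix (Fin 2) (Fin 2) F) = !![(x : F), 0; 0, ((x⁻¹ : Fˣ) : F)] := rfl

/-- The Weyl element of `SL₂`. -/
def w2 : SL(2, F) := ⟨!![0, 1; -1, 0], by simp [Matrix.det_fin_two]⟩

theorem w2_apply : ((w2 : SL(2, F)) : Matrix (Fin 2) (Fin 2) F) = !![0, 1; -1, 0] := rfl

theorem mem_range_diag2 {g : SL(2, F)} (h01 : g 0 1 = 0) (h10 : g 1 0 = 0) : g ∈ (diag2 (F := F)).range := by
  have hd := Linear.slTwo_det g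
  rw [h01, h10, mul_zero, sub_zero] at hd
  refine ⟨Units.mk0 _ (left_ne_zero_of_mul_eq_one hd), ?_⟩
  apply Linear.slTwo_ext <;> simp [diag2_apply, h01, h10]
  exact inv_eq_of_mul_eq_one_right hd

theorem frame_SL2 {a : ℕ} (hp5 : 5 ≤ p) (ha : 1 ≤ a) (hF : Fintype.card F = p ^ a) :
    ∃ (U T : Subgroup SL(2, F)) (b w : SL(2, F)), Frame p SL(2, F) U T b w := by
  classical
  haveI : CharP F p := charP_of_card_eq_prime_pow hF
  obtain ⟨c, hc, hc2, -⟩ := exists_scalar (F := F) hp5
  refine ⟨Linear.upperSL, (diag2 (F := F)).range, diag2 c, w2, ?_⟩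
  have hcen : ∀ z ∈ center SL(2, F), z 0 1 = 0 ∧ z 1 0 = 0 ∧ z 0 0 * z 0 0 = 1 ∧ z 1 1 = z 0 0 := by
    intro z hz
    obtain ⟨h1, h2, h3⟩ := EvenLocal.sl2_center_entries hz
    have hd := Linear.slTwo_det z
    rw [h1, h2, h3, mul_zero, sub_zero] at hd
    clear hz
    exact ⟨h1, h2, by rw [h3]; exact hd, h3.symm⟩
  have hcy : IsCyclic (diag2 (F := F)).range :=
    isCyclic_of_surjective (diag2 (F := F)).rangeRestrict (MonoidHom.rangeRestrict_surjective _)
  refine { unip := ?_, index := ?_, centre := ?_, normU := ?_, normT := ?_, cyclic := hcy, cop := ?_,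
           bmem := ⟨c, rfl⟩, bpow := ?_, fixB := ?_, small := ?_, wconj := ?_, centT := ?_, gen := ?_ }
  · exact IsPGroup.of_card (n := a) (by rw [Linear.card_upperSL, Nat.card_eq_fintype_card, hF])
  · intro hd
    have h1 := Subgroup.card_mul_index (Linear.upperSL (F := F))
    rw [Linear.card_upperSL, Linear.card_SL_two, Nat.card_eq_fintype_card, mul_assoc] at h1
    rw [Nat.eq_of_mul_eq_mul_left Fintype.card_pos h1] at hd
    have hdv : p ∣ Fintype.card F := hF ▸ dvd_pow_self p (by omega)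
    have hpos : 0 < Fintype.card F := Fintype.card_pos
    rcases hp.out.dvd_mul.1 hd with h | h
    · exact hp.out.one_lt.ne' (Nat.dvd_one.1 ((Nat.dvd_add_right h).1 (by rwa [Nat.sub_add_cancel hpos])))
    · exact hp.out.one_lt.ne' (Nat.dvd_one.1 ((Nat.dvd_add_right hdv).1 h))
  · intro z hz
    obtain ⟨h1, h2, h3, h4⟩ := hcen z hz
    have e : z * z = 1 := by
      apply Linear.slTwo_ext <;> simp [Linear.slTwo_mul_apply, h1, h2, h3, h4]
    rw [show (6 : ℕ) = 2 * 3 from rfl, pow_mul, sq, e, one_pow]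
  · intro g hg
    have h := hg _ (Linear.upperT_mem (1 : F))
    set v := g * Linear.upperT (1 : F) * g⁻¹ with hv
    have e : v * g = g * Linear.upperT 1 := by rw [hv]; group
    obtain ⟨v1, v2, v3⟩ := Linear.mem_upperSL.1 h
    have g10 : g 1 0 = 0 := by
      have b1 := congrArg (fun m : SL(2, F) => m 1 1) e
      simp [Linear.slTwo_mul_apply, v1, v2, v3, Matrix.SpecialLinearGroup.transvection_coe] at b1
      exact b1
    have hd := Linear.slTwo_det g
    rw [g10, mul_zero, sub_zero] at hd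
    set x : Fˣ := Units.mk0 _ (left_ne_zero_of_mul_eq_one hd) with hx
    refine ⟨g * (diag2 x)⁻¹, ?_, diag2 x, ⟨x, rfl⟩, (inv_mul_cancel_right g _).symm⟩
    rw [← map_inv, Linear.mem_upperSL]
    refine ⟨?_, ?_, ?_⟩ <;> simp [Linear.slTwo_mul_apply, diag2_apply, g10, hx]
    · rw [mul_inv_cancel₀ (left_ne_zero_of_mul_eq_one hd)]
    · rw [mul_comm]; exact hd
  · rintro _ ⟨x, rfl⟩ u hu
    obtain ⟨u1, u2, u3⟩ := Linear.mem_upperSL.1 hu
    rw [← map_inv, Linear.mem_upperSL]
    refine ⟨?_, ?_, ?_⟩ <;> simp [Linear.slTwo_mul_apply, diag2_apply, u1, u2, u3]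
  · have hdvd : Nat.card (diag2 (F := F)).range ∣ Nat.card Fˣ := Subgroup.card_range_dvd _
    rw [Nat.card_units, Nat.card_eq_fintype_card (α := F), hF] at hdvd
    refine Nat.Coprime.coprime_dvd_left hdvd ((hp.out.coprime_iff_not_dvd).2 fun h => ?_).symm
    have h' : p ∣ p ^ a := dvd_pow_self p (by omega)
    exact hp.out.one_lt.ne' (Nat.dvd_one.1 ((Nat.dvd_add_right h).1 (by
      rwa [Nat.sub_add_cancel (Nat.one_le_pow _ _ hp.out.pos)])))
  · rw [← map_pow, hc, map_one]
  · intro u hu h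
    obtain ⟨u1, u2, u3⟩ := Linear.mem_upperSL.1 hu
    have b1 := congrArg (fun m : SL(2, F) => m 0 1) h
    simp [Linear.slTwo_mul_apply, diag2_apply, u1, u2, u3] at b1
    have hne : (c : F) ≠ 0 := c.ne_zero
    have h1 : u 0 1 * ((c : F) ^ 2 - 1) = 0 := by
      field_simp at b1
      linear_combination -b1
    rw [mul_eq_zero] at h1
    apply Linear.slTwo_ext <;> simp [u1, u2, u3, h1.resolve_right (sub_ne_zero.2 hc2)]
  · refine lt_of_le_of_lt (Nat.card_le_card_of_injective
      (fun z : ↥((diag2 (F := F)).range ⊓ centralizer (Linear.upperSL (F := F) : Set SL(2, F))) =>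
        (⟨(z : SL(2, F)) 0 0, ?_⟩ : ({1, -1} : Set F))) ?_) ?_
    · obtain ⟨x, hx⟩ := z.2.1
      have h := mem_centralizer_iff.1 z.2.2 _ (Linear.upperT_mem (1 : F))
      rw [← hx] at h ⊢
      have b1 := congrArg (fun m : SL(2, F) => m 0 1) h
      simp [Linear.slTwo_mul_apply, diag2_apply, Matrix.SpecialLinearGroup.transvection_coe] at b1
      have h2 : (x : F) * x = 1 := by
        have := x.ne_zero
        field_simp at b1
        linear_combination -b1
      simpa [diag2_apply] using mul_self_eq_one_iff.1 h2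
    · intro y z hyz
      obtain ⟨x, hx⟩ := y.2.1
      obtain ⟨x', hx'⟩ := z.2.1
      have e := congrArg Subtype.val hyz
      simp [← hx, ← hx', diag2_apply] at e
      exact Subtype.ext (by rw [← hx, ← hx', Units.ext e])
    · calc Nat.card ({1, -1} : Set F) = ({1, -1} : Set F).ncard := (Set.ncard_def _ ▸ rfl)
        _ ≤ 2 := (Set.ncard_insert_le _ _).trans (by rw [Set.ncard_singleton])
        _ < p := by omega
  · rintro _ ⟨x, rfl⟩
    refine ⟨x⁻¹, ?_⟩
    rw [eq_mul_inv_iff_mul_eq]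
    apply Linear.slTwo_ext <;> simp [Linear.slTwo_mul_apply, diag2_apply, w2_apply]
  · intro g hg
    obtain ⟨h1, h2, h3, h4⟩ := hcen _ (hg (diag2 c) ⟨c, rfl⟩)
    set z := g * diag2 c * g⁻¹ * (diag2 c)⁻¹ with hz
    have e : g * diag2 c = z * diag2 c * g := by rw [hz]; group
    have b00 := congrArg (fun m : SL(2, F) => m 0 0) e
    have b01 := congrArg (fun m : SL(2, F) => m 0 1) e
    have b10 := congrArg (fun m : SL(2, F) => m 1 0) e
    have b11 := congrArg (fun m : SL(2, F) => m 1 1) e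
    simp [Linear.slTwo_mul_apply, diag2_apply, h1, h2, h4] at b00 b01 b10 b11
    have hne : (c : F) ≠ 0 := c.ne_zero
    rcases mul_self_eq_one_iff.1 h3 with hs | hs
    · rw [hs] at b01 b10
      field_simp at b01 b10
      refine Or.inl (mem_range_diag2 ((mul_eq_zero.1 (?_ : g 0 1 * ((c : F) ^ 2 - 1) = 0)).resolve_right
        (sub_ne_zero.2 hc2)) ((mul_eq_zero.1 (?_ : g 1 0 * ((c : F) ^ 2 - 1) = 0)).resolve_right
        (sub_ne_zero.2 hc2)))
      · linear_combination -b01
      · linear_combination b10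
    · rw [hs] at b00 b11
      have h2' : (2 : F) ≠ 0 := by
        exact_mod_cast natCast_ne_zero_of_lt (F := F) (n := 2) (by norm_num) (by omega)
      have g00 : g 0 0 = 0 := by
        refine (mul_eq_zero.1 (?_ : g 0 0 * (2 * c) = 0)).resolve_right (mul_ne_zero h2' hne)
        linear_combination b00
      have g11 : g 1 1 = 0 := by
        refine (mul_eq_zero.1 (?_ : g 1 1 * (2 * (c : F)⁻¹) = 0)).resolve_right (mul_ne_zero h2' (inv_ne_zero hne))
        linear_combination b11
      refine Or.inr (mem_range_diag2 ?_ ?_) <;> simp [Linear.slTwo_mul_apply, w2_apply, g00, g11]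
  · refine eq_top_iff.2 fun A _ => Matrix.SL2.transvection_induction
      (fun A => A ∈ closure ((Linear.upperSL (F := F) : Set SL(2, F)) ∪ (diag2 (F := F)).range ∪ {w2})) ?_
      (fun _ _ => mul_mem) A
    have hU : ∀ x : F, Linear.upperT x ∈ closure ((Linear.upperSL (F := F) : Set SL(2, F)) ∪ (diag2 (F := F)).range ∪ {w2}) :=
      fun x => subset_closure (Or.inl (Or.inl (Linear.upperT_mem x)))
    have hw : (w2 : SL(2, F)) ∈ closure ((Linear.upperSL (F := F) : Set SL(2, F)) ∪ (diag2 (F := F)).range ∪ {w2}) :=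
      subset_closure (Or.inr rfl)
    intro i j hij x
    fin_cases i <;> fin_cases j <;> first
      | exact absurd rfl hij
      | exact hU x
      | (have e : Linear.lowerT x = w2 * Linear.upperT (-x) * w2⁻¹ := by
           rw [eq_mul_inv_iff_mul_eq]
           apply Linear.slTwo_ext <;>
             simp [Linear.slTwo_mul_apply, w2_apply, Matrix.SpecialLinearGroup.transvection_coe]
         show Linear.lowerT x ∈ _
         rw [e]; exact mul_mem (mul_mem hw (hU _)) (inv_mem hw))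

open Matrix Cfsg.Agent.Known in
theorem frame_SU3 {a : ℕ} (hp5 : 5 ≤ p) (ha : 1 ≤ a) (hF : Fintype.card F = p ^ (2 * a)) :
    ∃ φ : F →+* F, Nonempty (U3.IsoG φ ≃* Cfsg.SU 3 F (p ^ a)) ∧
      ∃ (U T : Subgroup (U3.IsoG φ)) (b w : U3.IsoG φ), Frame p (U3.IsoG φ) U T b w := by
  classical
  haveI : CharP F p := charP_of_card_eq_prime_pow hF
  obtain ⟨φ, hφ⟩ := SU3.exists_frob (F := F) (q := p ^ a) (by rw [hF, ← pow_mul, mul_comm])
  obtain ⟨e, hcenter⟩ := U3.exists_equiv_su hφ
  obtain ⟨c, hc, hc2, hc3⟩ := exists_scalar (F := F) hp5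
  have hfix : φ (c : F) = c := by
    rw [hφ.hφ]
    haveI : ExpChar F p := ExpChar.prime hp.out
    have h1 : (c : F) ^ p = c := by
      have := congrArg (fun x : Fˣ => ((x * c : Fˣ) : F)) hc
      rwa [← pow_succ, Nat.sub_add_cancel (by omega), one_mul, Units.val_pow_eq_pow_val] at this
    clear * - h1
    induction a with
    | zero => simp
    | succ k ih => rw [pow_succ, pow_mul, ih, h1]
  set q := p ^ a with hq
  have hq5 : 5 ≤ q := hp5.trans (Nat.le_self_pow (by omega) p)
  have hcne : (c : F) ≠ 0 := c.ne_zero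
  have hwt : SU3Pres.wt φ c = c := by rw [SU3Pres.wt, hfix]; field_simp
  have hnm : SU3Pres.nm φ (c : F) = (c : F) ^ 2 := by rw [SU3Pres.nm, hfix, sq]
  set W : U3.IsoG φ := U3.wE with hW
  have hWW : W⁻¹ = W := inv_eq_of_mul_eq_one_right (U3.w_sq hφ)
  have hscal : ∀ z ∈ center (U3.IsoG φ), ∃ s : F, s ^ 3 = 1 ∧ z.1.1 = Matrix.scalar (Fin 3) s := fun z hz => by
    obtain ⟨s, hs⟩ := (hcenter z).1 hz
    refine ⟨s, ?_, hs⟩
    have h1 : z.1.1.det = 1 := z.1.2
    rw [hs] at h1
    simpa [Finset.prod_const] using h1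
  have hcard : Fintype.card F = q ^ 2 := U3.card_field hφ
  have hborel : ∀ (t : Fˣ) (x y : F), U3.Ok φ x y →
      U3.tE hφ t * U3.uE hφ x y * (U3.tE hφ t)⁻¹ = U3.uE hφ (SU3Pres.wt φ t * x) (SU3Pres.nm φ t * y) :=
    fun t x y h => U3.tE_uE hφ t h
  have key : ∃ (U T : Subgroup (U3.IsoG φ)) (b w : U3.IsoG φ), Frame p (U3.IsoG φ) U T b w := by
    refine ⟨U3.UM hφ, (U3.tE hφ).range, U3.tE hφ c, W, ?_⟩
    have hcy : IsCyclic (U3.tE hφ).range :=
      isCyclic_of_surjective (U3.tE hφ).rangeRestrict (MonoidHom.rangeRestrict_surjective _)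
    have hpq : p ∣ q := dvd_pow_self p (by omega)
    have hpq2 : p ∣ q ^ 2 := hpq.trans (dvd_pow_self q two_ne_zero)
    refine { unip := ?_, index := ?_, centre := ?_, normU := ?_, normT := ?_, cyclic := hcy, cop := ?_,
             bmem := ⟨c, rfl⟩, bpow := ?_, fixB := ?_, small := ?_, wconj := ?_, centT := ?_, gen := ?_ }
    · exact IsPGroup.of_card (n := a * 3) (by rw [U3.card_UM hφ, hq, ← pow_mul])
    · intro hd
      have h1 := Subgroup.card_mul_index (U3.UM hφ)
      rw [U3.card_UM hφ, U3.card_IsoG hφ, mul_assoc] at h1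
      rw [Nat.eq_of_mul_eq_mul_left (pow_pos (by omega) 3) h1] at hd
      rcases hp.out.dvd_mul.1 hd with h | h
      · exact hp.out.one_lt.ne' (Nat.dvd_one.1 ((Nat.dvd_add_right h).1 (by
          rwa [Nat.sub_add_cancel (Nat.one_le_pow _ _ (by omega))])))
      · exact hp.out.one_lt.ne' (Nat.dvd_one.1 ((Nat.dvd_add_right (hpq.trans (dvd_pow_self q three_ne_zero))).1 h))
    · intro z hz
      obtain ⟨s, hs, hsz⟩ := hscal z hz
      refine U3.ext_mat ?_
      rw [SubmonoidClass.coe_pow, Matrix.SpecialLinearGroup.coe_pow, hsz, ← map_pow,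
        show (6 : ℕ) = 3 * 2 from rfl, pow_mul, hs, one_pow, map_one]
      rfl
    · intro g hg
      rcases U3.decomp hφ g with ⟨x, y, t, h, rfl⟩ | ⟨x, y, t, x', y', h, h', rfl⟩
      · exact ⟨_, ⟨x, y, h, rfl⟩, _, ⟨t, rfl⟩, rfl⟩
      · exfalso
        -- the Weyl element would normalise the root group
        obtain ⟨b₁, hb₁⟩ := U3.exists_ok hφ 1
        set v := U3.uE hφ x' y' with hv
        have hm : (v⁻¹ * U3.uE hφ 1 b₁ * v : U3.IsoG φ) ∈ U3.UM hφ :=
          mul_mem (mul_mem (inv_mem ⟨_, _, h', rfl⟩) ⟨_, _, hb₁, rfl⟩) ⟨_, _, h', rfl⟩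
        have h1 := hg _ hm
        rw [show U3.uE hφ x y * U3.tE hφ t * W * v * (v⁻¹ * U3.uE hφ 1 b₁ * v) * (U3.uE hφ x y * U3.tE hφ t * W * v)⁻¹
          = U3.uE hφ x y * (U3.tE hφ t * (W * U3.uE hφ 1 b₁ * W⁻¹) * (U3.tE hφ t)⁻¹) * (U3.uE hφ x y)⁻¹ by group] at h1
        have h2 : U3.tE hφ t * (W * U3.uE hφ 1 b₁ * W⁻¹) * (U3.tE hφ t)⁻¹ ∈ U3.UM hφ := by
          have h3 : U3.uE hφ x y ∈ U3.UM hφ := ⟨_, _, h, rfl⟩
          have := mul_mem (mul_mem (inv_mem h3) h1) h3
          simpa [mul_assoc] using this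
        obtain ⟨x₂, y₂, h4, e4⟩ := h2
        have e5 := congrArg (fun g : U3.IsoG φ => g.1.1 1 0) (show U3.uE hφ x₂ y₂ * U3.tE hφ t =
          U3.tE hφ t * (W * U3.uE hφ 1 b₁ * W) by rw [e4, hWW]; group)
        simp [U3.val_mul3, U3.val_tE, U3.val_uE hφ h4, U3.val_uE hφ hb₁, hW, U3.val_wE,
          Matrix.mul_apply, Fin.sum_univ_three] at e5
        exact absurd e5.symm (div_ne_zero (by simp [t.ne_zero]) t.ne_zero)
    · rintro _ ⟨t, rfl⟩ _ ⟨x, y, h, rfl⟩
      rw [hborel t x y h]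
      exact ⟨_, _, U3.ok_tE hφ t h, rfl⟩
    · have hdvd : Nat.card (U3.tE hφ).range ∣ Nat.card Fˣ := Subgroup.card_range_dvd _
      rw [Nat.card_units, Nat.card_eq_fintype_card (α := F), hcard] at hdvd
      refine Nat.Coprime.coprime_dvd_left hdvd ((hp.out.coprime_iff_not_dvd).2 fun h => ?_).symm
      exact hp.out.one_lt.ne' (Nat.dvd_one.1 ((Nat.dvd_add_right h).1 (by
        rwa [Nat.sub_add_cancel (Nat.one_le_pow _ _ (by omega))])))
    · rw [← map_pow, hc, map_one]
    · rintro _ ⟨x, y, h, rfl⟩ hcomm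
      have h1 : U3.tE hφ c * U3.uE hφ x y * (U3.tE hφ c)⁻¹ = U3.uE hφ x y := by
        rw [← hcomm, mul_inv_cancel_right]
      rw [hborel c x y h, hwt, hnm] at h1
      have e1 := congrArg (fun g : U3.IsoG φ => g.1.1 0 1) h1
      have e2 := congrArg (fun g : U3.IsoG φ => g.1.1 0 2) h1
      have hok := U3.ok_tE hφ c h
      rw [hwt, hnm] at hok
      simp [U3.val_uE hφ hok, U3.val_uE hφ h] at e1 e2
      have hx : x = 0 := by
        refine (mul_eq_zero.1 (?_ : x * ((c : F) - 1) = 0)).resolve_right (sub_ne_zero.2 fun h => hc2 (by rw [h]; simp))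
        linear_combination e1
      have hy : y = 0 := by
        refine (mul_eq_zero.1 (?_ : y * ((c : F) ^ 2 - 1) = 0)).resolve_right (sub_ne_zero.2 hc2)
        linear_combination e2
      rw [hx, hy, U3.uE_zero]
    · have h3 : ∀ z : ↥((U3.tE hφ).range ⊓ centralizer (U3.UM hφ : Set (U3.IsoG φ))),
          ∃ t : Fˣ, t ^ 3 = 1 ∧ U3.tE hφ t = (z : U3.IsoG φ) := by
        rintro ⟨g, ⟨t, rfl⟩, hg⟩
        refine ⟨t, ?_, rfl⟩
        obtain ⟨b₁, hb₁⟩ := U3.exists_ok hφ 1
        have h1 : U3.tE hφ t * U3.uE hφ 1 b₁ * (U3.tE hφ t)⁻¹ = U3.uE hφ 1 b₁ := by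
          rw [← mem_centralizer_iff.1 hg _ ⟨_, _, hb₁, rfl⟩, mul_inv_cancel_right]
        rw [hborel t 1 b₁ hb₁] at h1
        have hok := U3.ok_tE hφ t hb₁
        have e1 := congrArg (fun g : U3.IsoG φ => g.1.1 0 1) h1
        rw [U3.val_uE hφ hok, U3.val_uE hφ hb₁] at e1
        simp [SU3Pres.wt] at e1
        have h2 : φ (t : F) = (t : F) ^ 2 := by
          rw [div_eq_one_iff_eq (by simp [t.ne_zero])] at e1; exact e1.symm
        have h4 := hφ.invol (t : F)
        rw [h2, map_pow, h2, ← pow_mul] at h4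
        refine Units.ext ?_
        rw [Units.val_pow_eq_pow_val, Units.val_one]
        refine mul_left_cancel₀ t.ne_zero ?_
        rw [← pow_succ', h4, mul_one]
      choose f hf hfz using h3
      refine lt_of_le_of_lt (Nat.card_le_card_of_injective (fun z => (⟨f z, hf z⟩ : {s : Fˣ // s ^ 3 = 1}))
        fun y z hyz => Subtype.ext (by rw [← hfz y, ← hfz z]; exact congrArg _ (congrArg Subtype.val hyz))) ?_
      rw [Nat.card_eq_fintype_card, Fintype.card_subtype]
      exact lt_of_le_of_lt (IsCyclic.card_pow_eq_one_le (by norm_num)) (by omega)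
    · rintro _ ⟨t, rfl⟩
      rw [hWW, U3.w_tE hφ t]
      exact inv_mem ⟨_, rfl⟩
    · intro g hg
      refine Or.inl ?_
      obtain ⟨s, hs, hsz⟩ := hscal _ (hg (U3.tE hφ c) ⟨c, rfl⟩)
      set z := g * U3.tE hφ c * g⁻¹ * (U3.tE hφ c)⁻¹ with hz
      have e : (g * U3.tE hφ c).1.1 = (z * U3.tE hφ c * g).1.1 :=
        congrArg (fun g : U3.IsoG φ => g.1.1) (by rw [hz]; group)
      rw [U3.val_mul3, U3.val_mul3, U3.val_mul3, hsz, U3.val_tE, hfix, div_self hcne] at e
      set A := g.1.1 with hA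
      have ent : ∀ i j : Fin 3, A i j * (![(c : F), 1, (c : F)⁻¹] j - s * ![(c : F), 1, (c : F)⁻¹] i) = 0 := by
        intro i j
        have hd : (!![(c : F), 0, 0; 0, 1, 0; 0, 0, (c : F)⁻¹] : Matrix (Fin 3) (Fin 3) F) =
            Matrix.diagonal ![(c : F), 1, (c : F)⁻¹] := by
          ext i j; fin_cases i <;> fin_cases j <;> simp
        rw [hd, Matrix.scalar_apply, Matrix.diagonal_mul_diagonal] at e
        have := congrFun₂ e i j
        rw [Matrix.mul_diagonal, Matrix.diagonal_mul] at this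
        linear_combination this
      have hdet : A.det = 1 := g.1.2
      have c1 : (c : F) ≠ 1 := fun h => hc2 (by rw [h]; simp)
      have hs1 : s = 1 := by
        by_contra hs1
        have hsc : s ≠ (c : F) := fun h => hc3 (h ▸ hs)
        have hsc' : s * c ≠ 1 := fun h => hc3 (by
          have := congrArg (· ^ 3) h
          simpa [mul_pow, hs] using this)
        have z11 : A 1 1 = 0 := (mul_eq_zero.1 (ent 1 1)).resolve_right (by simpa using sub_ne_zero.2 (Ne.symm hs1))
        have z10 : A 1 0 = 0 := (mul_eq_zero.1 (ent 1 0)).resolve_right (by simpa using sub_ne_zero.2 hsc.symm)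
        have z12 : A 1 2 = 0 := (mul_eq_zero.1 (ent 1 2)).resolve_right (by
          simpa using sub_ne_zero.2 fun h => hsc' (by rw [← h, inv_mul_cancel₀ hcne]))
        rw [Matrix.det_fin_three, z10, z11, z12] at hdet
        simp at hdet
      rw [hs1] at ent
      have hcc : (c : F) ≠ (c : F)⁻¹ := fun h => hc2 (by rw [sq]; nth_rw 1 [h]; exact inv_mul_cancel₀ hcne)
      have hc1' : (c : F)⁻¹ ≠ 1 := fun h => c1 (inv_eq_one.1 h)
      have off : ∀ i j : Fin 3, i ≠ j → A i j = 0 := fun i j hij =>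
        (mul_eq_zero.1 (ent i j)).resolve_right (by
          rw [one_mul, sub_eq_zero]
          fin_cases i <;> fin_cases j <;>
            first
              | exact absurd rfl hij
              | exact c1
              | exact c1.symm
              | exact hcc
              | exact hcc.symm
              | exact hc1'
              | exact hc1'.symm)
      rw [Matrix.det_fin_three, off 0 1 (by decide), off 0 2 (by decide), off 1 0 (by decide), off 1 2 (by decide),
        off 2 0 (by decide), off 2 1 (by decide)] at hdet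
      simp at hdet
      have h00 : A 0 0 ≠ 0 := fun h => by simp [h] at hdet
      -- the form fixes the last entry
      have hiso := g.2 ![(1 : F), 0, 0] ![(0 : F), 0, 1]
      simp [SU3.H_eq, Matrix.mulVec, dotProduct, Fin.sum_univ_three, ← hA, off 1 0 (by decide), off 2 0 (by decide),
        off 0 2 (by decide), off 1 2 (by decide)] at hiso
      refine ⟨Units.mk0 _ h00, U3.ext_mat ?_⟩
      rw [U3.val_tE, ← hA]
      have h22 : A 2 2 = (φ (A 0 0))⁻¹ := by
        have := congrArg φ hiso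
        rw [map_mul, map_one, hφ.invol] at this
        exact eq_inv_of_mul_eq_one_right this
      have h11 : A 1 1 = φ (A 0 0) / A 0 0 := by
        have hφ0 : φ (A 0 0) ≠ 0 := by simp [h00]
        rw [h22] at hdet
        field_simp at hdet ⊢
        linear_combination hdet
      ext i j
      fin_cases i <;> fin_cases j <;>
        simp [h11, h22, off 0 1 (by decide), off 0 2 (by decide), off 1 0 (by decide), off 1 2 (by decide),
          off 2 0 (by decide), off 2 1 (by decide)]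
    · refine eq_top_iff.2 fun g _ => ?_
      rcases U3.decomp hφ g with ⟨x, y, t, h, rfl⟩ | ⟨x, y, t, x', y', h, h', rfl⟩
      · exact mul_mem (subset_closure (Or.inl (Or.inl ⟨_, _, h, rfl⟩))) (subset_closure (Or.inl (Or.inr ⟨t, rfl⟩)))
      · exact mul_mem (mul_mem (mul_mem (subset_closure (Or.inl (Or.inl ⟨_, _, h, rfl⟩)))
          (subset_closure (Or.inl (Or.inr ⟨t, rfl⟩)))) (subset_closure (Or.inr rfl)))
          (subset_closure (Or.inl (Or.inl ⟨_, _, h', rfl⟩)))
  exact ⟨φ, ⟨e⟩, key⟩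

end Cfsg.Agent.RankOneFix
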